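import Mathlib
import Cfsg.Prelude.Def_Sz
import Cfsg.Agent.H540.E8C.Main
import Cfsg.Agent.H540.E8C.End

/-!
# S5919, the row `Sz(8)`: interface (helper540)
-/

set_option autoImplicit false

namespace Cfsg.Agent.H540.E8C.Sz

open Cfsg Cfsg.Lie Module
open Cfsg.Agent.H540.E8C.End

universe u

/-- the facts on the group `Sz(8)` used in the row -/
structure Num (Q : Type*) [Group Q] : Prop where
  card : Nat.card Q = 29120
  spec : ∀ g : Q, g ^ 4 = 1 ∨ g ^ 5 = 1 ∨ g ^ 7 = 1 ∨ g ^ 13 = 1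
  n2 : Nat.card {g : Q // g ^ 4 = 1} = 4096
  n5 : Nat.card {g : Q // g ^ 5 = 1} = 5825
  n13 : Nat.card {g : Q // g ^ 13 = 1} = 6721
  ex4 : ∃ g : Q, g ^ 4 = 1 ∧ g ^ 2 ≠ 1
  conj5 : ∀ y : Q, y ^ 13 = 1 → ∃ h : Q, h * y * h⁻¹ = y ^ 5
  cent : ∀ y : Q, y ^ 13 = 1 → y ≠ 1 → Nat.card ↥(Subgroup.centralizer ({y} : Set Q)) = 13

/-- **Task SZ1** -/
def NumSz : Prop := ∀ (F₈ : Type u) [Field F₈] [Fintype F₈] (_ : Fintype.card F₈ = 8), Num ↥(Cfsg.Lie.Sz F₈ 4)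

/-- **Task SZ2** -/
def Dims : Prop := ∀ (Q : Type) [Group Q] [Finite Q] (_ : Num Q) (F : Q →* E) (_ : Function.Injective F) (y : Q)
    (_ : y ^ 13 = 1) (_ : y ≠ 1),
    (Partner 13 (F y) ∧ 1 ≤ finrank (ZMod 3) ↥(fixV F.range)) ∨
      (18743628421389393110651003031810837312 ≤ Nat.card ↥(Subgroup.centralizer {F y}) ∧
        16 ≤ finrank (ZMod 3) ↥(fixV F.range) ∧ Nat.card {v : LL // ac (F y) v = v} = 3 ^ 80)

/-- **Task SZ3** -/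
def Grp : Prop := ∀ (F₈ : Type u) [Field F₈] [Fintype F₈] (_ : Fintype.card F₈ = 8) (H : Type) [Group H] [Finite H]
    (_ : Nonempty (↥(Cfsg.generalizedFittingSubgroup H) ≃* ↥(Cfsg.Lie.Sz F₈ 4))),
    Nat.card H = 29120 ∨ Nat.card H = 3 * 29120

/-- **Task SZ4** (assuming the others) -/
def Row : Prop := ∀ (F₈ : Type u) [Field F₈] [Fintype F₈] (_ : Fintype.card F₈ = 8) (H : Subgroup E)
    (_ : Nonempty (↥(Cfsg.generalizedFittingSubgroup ↥H) ≃* ↥(Cfsg.Lie.Sz F₈ 4))), ¬ IsCoatom H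

end Cfsg.Agent.H540.E8C.Sz
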